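import Cfsg.Agent.Chev.All
import Cfsg.Agent.Chev.Simple

/-! Iterated cores of a maximal parabolic subgroup and its conjugate by the remaining fundamental reflection, over the
field with two elements (helper16). -/

set_option autoImplicit false

namespace Cfsg.Agent.FI.Core

open Cfsg.Agent.Chev Cfsg.Lie Sys

variable {D : ChevalleyDatum} [Good D] [Conn D] {G : Type*} [Group G] {X : Sys D (ZMod 2) G} (c : X.Cover) {j : Sm D}

theorem lv_sr (r : Rt D) : rtv (sr j • r) j = rtv r j - car j r := by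
  rw [sr_smul, rtv_refl, A_sm, rtv_sm]; simp

theorem ht_sr (i : Sm D) (r : Rt D) : ht (sr i • r) = ht r - car i r := by
  rw [← htF_rtv, sr_smul, rtv_refl, A_sm, map_sub, map_zsmul, htF_rtv, htF_rtv]; simp

omit [Conn D] in
theorem pos_of_lv {r : Rt D} (h : 0 < rtv r j) : Pos r :=
  (pos_or_pos_ng r).resolve_right fun h' => by have := h' j; simp at this; omega

omit [Conn D] in
theorem lv_smul {w : WG D} (hw : w ∈ WJ ({j}ᶜ : Set (Sm D))) (r : Rt D) : rtv (w • r) j = rtv r j :=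
  rtv_smul_of_mem hw r (by simp)

theorem descend {p : Rt D → Prop} {k : ℤ} (hk : 0 < k) (h : ∀ r, rtv r j = k → p r ∨ ∃ i, i ≠ j ∧ 0 < car i r)
    (r : Rt D) (hr : rtv r j = k) : ∃ w ∈ WJ ({j}ᶜ : Set (Sm D)), p (w • r) := by
  induction hn : (ht r).toNat using Nat.strong_induction_on generalizing r with
  | _ n ih =>
    rcases h r hr with h1 | ⟨i, hi, h1⟩
    · exact ⟨1, one_mem _, by rwa [one_smul]⟩
    · have a1 := lv_smul (sr_mem_WJ (J := {j}ᶜ) hi) r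
      have a2 := (pos_of_lv (hk.trans_eq (a1.trans hr).symm)).ht_pos
      have a3 := ht_sr i r
      obtain ⟨w, hw, h2⟩ := ih _ (by omega) _ (a1.trans hr) rfl
      exact ⟨w * sr i, mul_mem hw (sr_mem_WJ hi), by rwa [mul_smul]⟩

variable (j) in
/-- The roots of level at least `k` outside `T`. -/
def S (k : ℤ) (T : Set (Rt D)) : Set (Rt D) := {r | k ≤ rtv r j ∧ r ∉ T}

omit [Conn D] in
theorem comb_lv {a b r : Rt D} (h : Comb a b r) (ha : 0 ≤ rtv a j) (hb : 0 ≤ rtv b j) : rtv a j + rtv b j ≤ rtv r j :=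
  h.le (LinearMap.proj j) ha hb

omit [Conn D] in
theorem nilp_S {k : ℤ} (hk : 0 < k) {T : Set (Rt D)} (hT : ∀ r ∈ T, rtv r j = k) : Nilp (htF D) (S j k T) :=
  ⟨fun r hr => htF_rtv r ▸ (pos_of_lv (hk.trans_le hr.1)).ht_pos, fun a ha b hb r h => by
    have := comb_lv h (hk.le.trans ha.1) (hk.le.trans hb.1)
    have := ha.1; have := hb.1
    exact ⟨by omega, fun h' => by have := hT r h'; omega⟩⟩

omit [Conn D] in
theorem mono {A B : Set (Rt D)} {y : G} (hy : y ∈ X.U A) (h : ∀ r ∈ A, r ∈ B) : y ∈ X.U B := X.U_mono h hy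

include c

omit [Conn D] in
theorem mem_S {k : ℤ} (hk : 0 < k) {y : G} (h0 : y ∈ X.U (S j k ∅)) {T : Set (Rt D)} (hT : ∀ r ∈ T, rtv r j = k)
    (h : ∀ r ∈ T, y ∈ X.U (S j k {r})) : y ∈ X.U (S j k T) := by
  induction T, Set.toFinite T using Set.Finite.induction_on with
  | empty => exact h0
  | @insert a T _ _ ih =>
    have := (c.U_inf_U (nilp_S hk fun r hr => hT r (.inr hr)) (nilp_S hk fun r hr => hT r (.inl hr))).le
      ⟨ih (fun r hr => hT r (.inr hr)) fun r hr => h r (.inr hr), h a (.inl rfl)⟩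
    exact mono this fun r hr => ⟨hr.1.1, fun h' => h'.elim hr.2.2 hr.1.2⟩

omit c in
theorem conj_Q {k : ℤ} (hk : 0 < k) {m y : G} (hm : m ∈ X.P {j}ᶜ) (hy : y ∈ X.U (S j k ∅)) :
    m * y * m⁻¹ ∈ X.U (S j k ∅) := by
  refine conj_mem_of_norm ((X.P_eq _).le.trans (sup_le (X.H_le_normalizer_U _) (X.U_le_normalizer fun a ha s hs => ?_)) hm) hy
  have h1 : 0 ≤ rtv a j := ha.elim (· j) fun h => (h j (by simp)).ge
  have h2 := hs.1
  refine ⟨fun h => ?_, fun r h => ⟨?_, id⟩⟩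
  · rw [h] at h2; simp at h2; omega
  · have := comb_lv h h1 (by omega); omega

omit c in
theorem Q_le {k : ℤ} (hk : 0 < k) (T : Set (Rt D)) : X.U (S j k T) ≤ X.P {j}ᶜ :=
  (X.U_mono fun _ hr => pos_of_lv (hk.trans_le hr.1)).trans (X.UP_le_B.trans (X.B_le_P _))

theorem n_notMem : X.n (sm j) 1 ∉ X.P {j}ᶜ := fun h => by
  have := lv_smul ((c.mem_P_iff ((X.mon_sm j one_ne_zero).cell (X.n_mem_N _ one_ne_zero))).1 h) (sm j)
  rw [lv_sr, car_sm_self] at this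
  omega

omit c in
theorem H_eq : X.H = ⊥ := Subgroup.closure_eq_bot_iff.2 (by
  rintro _ ⟨r, t, ht, rfl⟩
  rw [show t = 1 by revert t; decide, h_one]; rfl)

omit c in
theorem nn : X.n (sm j) 1 * X.n (sm j) 1 = 1 := by
  rw [n_one_mul_self, show (-1 : ZMod 2) = 1 from rfl, h_one, inv_one]

theorem hyp {y : G} (hy : y ∈ X.U (S j 1 ∅)) (h : X.n (sm j) 1 * y * (X.n (sm j) 1)⁻¹ ∈ X.P {j}ᶜ) :
    y ∈ X.U (S j 1 {sm j}) := by
  obtain ⟨a, ha, b, hb, rfl⟩ := exists_mul (nilp_S one_pos (by simp)) {sm j} hy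
  obtain ⟨t, rfl⟩ := mem_U_singleton.1 (X.U_mono Set.inter_subset_right ha)
  have hb' : b ∈ X.U (S j 1 {sm j}) := mono hb fun r hr => ⟨hr.1.1, hr.2⟩
  obtain rfl | rfl := (by decide : ∀ t : ZMod 2, t = 0 ∨ t = 1) t
  · simpa [x_zero] using hb'
  obtain ⟨d, -, hd⟩ := X.mon_sm j (one_ne_zero (α := ZMod 2))
  have h1 := X.B_le_P {j}ᶜ (X.UP_le_B ((X.mon_sm j one_ne_zero).conj_mem_U
    (fun r hr => pos_sr (pos_of_lv (one_pos.trans_le hr.1)) hr.2) hb'))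
  have h2 : X.x (ng (sm j)) (-1⁻¹) ∈ X.P {j}ᶜ := by
    have := mul_mem h (inv_mem h1)
    rw [show ∀ n x b : G, n * (x * b) * n⁻¹ * (n * b * n⁻¹)⁻¹ = n * x * n⁻¹ from fun _ _ _ => by group, hd,
      sr_smul_self, Subsingleton.elim (d _) 1] at this
    convert this using 2
    simp [show (-1 : ZMod 2) = 1 from rfl]
  have h3 := X.B_le_P {j}ᶜ (X.UP_le_B (X.x_mem_U (pos_sm j) 1))
  exact absurd (mul_mem (mul_mem h3 h2) h3) (n_notMem c)

omit c in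
theorem exists_m {w : WG D} (hw : w ∈ WJ ({j}ᶜ : Set (Sm D))) : ∃ m ∈ X.P {j}ᶜ, X.Mon m w := by
  obtain ⟨m, -, h1, h2⟩ := X.exists_mem_N_of_mem hw
  exact ⟨m, h2 _ fun i hi => X.n_mem_P hi, h1⟩

omit c in
theorem conj_S {k : ℤ} {w : WG D} (hw : w ∈ WJ ({j}ᶜ : Set (Sm D))) {m y : G} (hm : X.Mon m w) {r : Rt D}
    (hy : y ∈ X.U (S j k {r})) : m * y * m⁻¹ ∈ X.U (S j k {w • r}) :=
  hm.conj_mem_U (S := S j k {r}) (T := S j k {w • r})
    (fun s hs => And.intro ((lv_smul hw s).symm ▸ hs.1) fun h => hs.2 (MulAction.injective w h)) hy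

omit c in
theorem conj_S' {k : ℤ} {w : WG D} (hw : w ∈ WJ ({j}ᶜ : Set (Sm D))) {m y : G} (hm : X.Mon m w) {r : Rt D}
    (hy : m * y * m⁻¹ ∈ X.U (S j k {w • r})) : y ∈ X.U (S j k {r}) := by
  simpa [mul_assoc] using conj_S (inv_mem hw) hm.inv hy

theorem up {k : ℤ} (hk : 0 < k) {y : G} (h0 : y ∈ X.U (S j k ∅)) (h : ∀ r, rtv r j = k → y ∈ X.U (S j k {r})) :
    y ∈ X.U (S j (k + 1) ∅) :=
  mono (mem_S c hk h0 (T := {r | rtv r j = k}) (fun _ h => h) h)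
    fun _ hr => ⟨lt_of_le_of_ne hr.1 fun h => hr.2 h.symm, id⟩

variable (h1 : ∀ r, rtv r j = 1 → r = sm j ∨ ∃ i, i ≠ j ∧ 0 < car i r)

include h1 in
theorem step1 {y : G} (h0 : y ∈ X.U (S j 1 ∅))
    (h : ∀ m ∈ X.P {j}ᶜ, X.n (sm j) 1 * (m * y * m⁻¹) * (X.n (sm j) 1)⁻¹ ∈ X.P {j}ᶜ) : y ∈ X.U (S j 2 ∅) :=
  up c one_pos h0 fun r hr => by
    obtain ⟨w, hw, e⟩ := descend one_pos h1 r hr
    obtain ⟨m, hm, a⟩ := exists_m (X := X) hw
    exact conj_S' hw a (e ▸ hyp c (conj_Q one_pos hm h0) (h m hm))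

theorem stepk (h2 : ∀ r, 0 < rtv r j → ∃ i, 0 < car i r) {k : ℤ} (hk : 2 ≤ k) {y : G} (h0 : y ∈ X.U (S j k ∅))
    (h : ∀ m ∈ X.P {j}ᶜ, X.n (sm j) 1 * (m * y * m⁻¹) * (X.n (sm j) 1)⁻¹ ∈ X.U (S j k ∅)) :
    y ∈ X.U (S j (k + 1) ∅) :=
  up c (by omega) h0 fun r hr => by
    obtain ⟨w, hw, e⟩ := descend (p := fun r => 0 < car j r) (k := k) (by omega) (fun r hr => by
      obtain ⟨i, hi⟩ := h2 r (by omega)
      by_cases h : i = j
      exacts [.inl (h ▸ hi), .inr ⟨i, h, hi⟩]) r hr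
    obtain ⟨m, hm, a⟩ := exists_m (X := X) hw
    have a1 := (X.mon_sm j one_ne_zero).inv.conj_mem_U (T := {r | sr j • r ∈ S j k ∅})
      (fun s hs => by simpa [sr_inv, sr_smul_smul] using hs) (h m hm)
    rw [show ∀ n z : G, n⁻¹ * (n * z * n⁻¹) * n⁻¹⁻¹ = z from fun _ _ => by group] at a1
    have a2 : Nilp (htF D) {r | sr j • r ∈ S j k ∅} := ⟨fun s hs => by
      have b := hs.1
      have := pos_sr (i := j) (pos_of_lv (r := sr j • s) (j := j) (by omega)) fun e => by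
        rw [e, rtv_sm] at b; simp at b; omega
      rw [sr_smul_smul] at this
      exact htF_rtv s ▸ this.ht_pos, fun a ha b hb s hs =>
        (nilp_S (by omega) (by simp)).closed _ ha _ hb _ (hs.smul _)⟩
    refine conj_S' hw a (mono ((c.U_inf_U (nilp_S (by omega) (by simp)) a2).le
      ⟨conj_Q (by omega) hm h0, a1⟩) fun s hs => ⟨hs.1.1, fun e' => ?_⟩)
    have := hs.2.1
    rw [e', lv_sr, lv_smul hw] at this
    omega

include h1 in
theorem cell_ht {y : G} (hy : y ∈ X.P {j}ᶜ)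
    (h : ∀ m ∈ X.P {j}ᶜ, X.n (sm j) 1 * (m * y * m⁻¹) * (X.n (sm j) 1)⁻¹ ∈ X.P {j}ᶜ) {v : WG D}
    (hv : v ∈ WJ ({j}ᶜ : Set (Sm D))) (hc : X.Cell y v) {β : Rt D} (hβ : rtv β j = 1) : v • β = β ∨ ht β < ht (v • β) := by
  have a1 : ∀ r, rtv r j = 1 → ∀ z ∈ X.U (S j 1 {r}), y * z * y⁻¹ ∈ X.U (S j 1 {r}) := fun r hr z hz => by
    obtain ⟨w, hw, e⟩ := descend one_pos h1 r hr
    obtain ⟨m, hm, a⟩ := exists_m (X := X) hw
    have b1 := conj_S hw a hz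
    rw [e] at b1
    refine conj_S' hw a (e ▸ hyp c (conj_Q one_pos hm (conj_Q one_pos hy (mono hz fun _ h => ⟨h.1, id⟩))) ?_)
    have b2 := X.B_le_P {j}ᶜ (X.UP_le_B ((X.mon_sm j one_ne_zero).conj_mem_U
      (fun r hr => pos_sr (pos_of_lv (one_pos.trans_le hr.1)) hr.2) b1))
    convert mul_mem (mul_mem (h m hm) b2) (inv_mem (h m hm)) using 1
    group
  by_contra hne
  rw [not_or, not_lt] at hne
  have a0 : ∀ T, β ∉ T → X.x β 1 ∈ X.U (S j 1 T) := fun T hT => X.x_mem_U (S := S j 1 T) (And.intro hβ.ge hT) 1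
  have hT : ∀ r ∈ {r | rtv r j = 1 ∧ r ≠ β ∧ ht r ≤ ht β}, rtv r j = 1 := fun _ h => h.1
  have a2 := mem_S c one_pos (conj_Q one_pos hy (a0 ∅ id)) hT fun r hr => a1 r hr.1 _ (a0 _ (Ne.symm hr.2.1))
  obtain ⟨b, hb, n, -, hn, b', hb', rfl⟩ := hc
  rw [B, H_eq, sup_bot_eq] at hb hb'
  have a3 := conj_mem_of_norm' (X.U_le_normalizer (fun a ha s hs => ⟨fun e => ?_, fun r hr => ?_⟩) hb) a2
  rotate_left
  · have := ha j; have := hs.1
    rw [e] at this; simp at this; omega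
  · have b1 := comb_lv hr (ha j) (zero_le_one.trans hs.1)
    have b2 := hr.le (htF D) (htF_rtv a ▸ ha.ht_pos.le) ((nilp_S one_pos hT).pos s hs).le
    have b3 := ha.ht_pos
    have b4 := ha j
    have b5 := hs.1
    simp only [htF_rtv] at b2
    refine ⟨by omega, fun h => hs.2 ⟨by have := h.1; omega, fun e => ?_, by have := h.2.2; omega⟩⟩
    have := h.2.2; rw [e] at b2; omega
  have a4 : b' * X.x β 1 * b'⁻¹ * (X.x β 1)⁻¹ ∈ X.U (S j 1 {β}) := by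
    have b1 := comm_mem_lvl nilp_Pos (m := ht β) (inv_mem hb') (inv_mem (X.x_mem_U (r := β)
      (And.intro (pos_of_lv (one_pos.trans_eq hβ.symm)) (htF_rtv β).ge) 1))
    have b2 := mul_mem (conj_Q one_pos (X.B_le_P _ (X.UP_le_B hb')) (a0 ∅ id)) (inv_mem (a0 ∅ id))
    rw [inv_inv, inv_inv] at b1
    refine mono ((c.U_inf_U (nilp_S one_pos (by simp))
      ⟨fun r hr => nilp_Pos.pos r hr.1, fun a ha b hb r hr => lvl_anti _ _ (by omega)
        (nilp_Pos.comb_lvl ha.1 hb hr)⟩).le ⟨b2, b1⟩) fun r hr => ⟨hr.1.1, fun e => ?_⟩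
    have := hr.2.2
    rw [e, htF_rtv] at this
    omega
  have a5 := lv_smul hv β
  have a6 := mul_mem (inv_mem (conj_S hv hn a4)) (mono (B := S j 1 {v • β}) a3
    fun r hr => ⟨hr.1, fun e => hr.2 (e ▸ ⟨a5.trans hβ, hne.1, hne.2⟩)⟩)
  obtain ⟨d, -, hd⟩ := hn
  rw [show ∀ n b b' x : G, (n * (b' * x * b'⁻¹ * x⁻¹) * n⁻¹)⁻¹ * (b⁻¹ * (b * n * b' * x * (b * n * b')⁻¹) * b) =
    n * x * n⁻¹ from fun _ _ _ _ => by group, hd] at a6
  exact (c.mem_of_x_mem_U (nilp_S one_pos (by simp [a5, hβ])) (htF_rtv (v • β) ▸ (pos_of_lv (j := j) (by omega)).ht_pos)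
    (by simp) a6).2 rfl

include h1 in
theorem step0 (h3 : ∀ i, i ≠ j → ∃ r, rtv r j = 1 ∧ car i r = -1) {K : Subgroup G} (hK : K ≤ X.P {j}ᶜ)
    (hn : ∀ m ∈ X.P {j}ᶜ, ∀ y ∈ K, m * y * m⁻¹ ∈ K)
    (h : ∀ y ∈ K, X.n (sm j) 1 * y * (X.n (sm j) 1)⁻¹ ∈ X.P {j}ᶜ) : K ≤ X.U (S j 1 ∅) := by
  have a1 : K ≤ X.UP := fun y hy => by
    obtain ⟨v, hv, hc⟩ := exists_cell_of_mem_P (hK hy)
    have b1 : ∀ β, rtv β j = 1 → v • β = β := fun β hβ => by
      refine (cell_ht c h1 (hK hy) (fun m hm => h _ (hn m hm y hy)) hv hc hβ).resolve_right fun e => ?_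
      rcases cell_ht c h1 (hK (inv_mem hy)) (fun m hm => h _ (hn m hm _ (inv_mem hy))) (inv_mem hv) hc.inv
        ((lv_smul hv β).trans hβ) with e' | e' <;> rw [inv_smul_smul] at e'
      · rw [← e'] at e; omega
      · omega
    have b2 : v = 1 := eq_one_of_pos fun i => by
      by_cases hi : i = j
      · rw [hi, b1 _ (by simp [rtv_sm])]; exact pos_sm j
      obtain ⟨r, hr, e⟩ := h3 i hi
      have d1 : rtv (sr i • r) = (1 : ℤ) • rtv r + (1 : ℤ) • rtv (sm i) := by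
        rw [sr_smul, rtv_refl, A_sm, e]; simp
      have d2 := rtv_smul_comb v d1
      rw [b1 r hr, b1 _ ((rtv_sr_of_ne (Ne.symm hi) r).trans hr), d1] at d2
      rw [← rtv_injective (by simpa using d2 : rtv (sm i) = rtv (v • sm i))]
      exact pos_sm i
    have := c.mem_B_of_cell (b2 ▸ hc)
    rwa [B, H_eq, sup_bot_eq] at this
  intro y hy
  obtain ⟨m, hm, a⟩ := exists_m (X := X) (w0_mem ({j}ᶜ : Set (Sm D)))
  obtain ⟨u, hu, b, hb, rfl⟩ := exists_mul nilp_Pos {r | 0 < rtv r j} (a1 hy)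
  have b1 : u ∈ X.U (S j 1 ∅) := mono hu fun r hr => ⟨hr.2, id⟩
  have b2 := mul_mem (inv_mem (X.U_mono (T := {r | Pos r}) (fun r hr => pos_of_lv (one_pos.trans_le hr.1))
    (conj_Q one_pos hm b1))) (a1 (hn m hm _ hy))
  rw [show ∀ m u b : G, (m * u * m⁻¹)⁻¹ * (m * (u * b) * m⁻¹) = m * b * m⁻¹ from fun _ _ _ => by group] at b2
  have b3 := c.eq_one_of_B_UN (X.UP_le_B b2) (a.conj_mem_U (fun r hr => not_pos_w0 hr.1 fun i hi => by
    obtain rfl : i = j := by simpa using hi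
    exact le_antisymm (not_lt.1 hr.2) (hr.1 i)) hb)
  have : b = 1 := by simpa using b3
  rwa [this, mul_one]

end Cfsg.Agent.FI.Core
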