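import Cfsg.Agent.FI.Core

/-! The sequence of iterated cores for a maximal parabolic subgroup over the field with two elements (helper16). -/

set_option autoImplicit false

namespace Cfsg.Agent.FI.Core

open Cfsg.Agent.Chev Cfsg.Lie Sys

section
variable {G : Type*} [Group G]

theorem mem_core {M Y : Subgroup G} {g : G} :
    g ∈ (Y.subgroupOf M).normalCore.map M.subtype ↔ g ∈ M ∧ ∀ m ∈ M, m * g * m⁻¹ ∈ Y :=
  ⟨by rintro ⟨⟨g, hg⟩, h, rfl⟩; exact ⟨hg, fun m hm => h ⟨m, hm⟩⟩, fun h => ⟨⟨g, h.1⟩, fun m => h.2 m m.2, rfl⟩⟩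

theorem mem_cj {n : G} (hn : n * n = 1) {Y : Subgroup G} {g : G} :
    g ∈ Y.map (MulAut.conj n).toMonoidHom ↔ n * g * n⁻¹ ∈ Y := by
  have e : ∀ y : G, n * (n * y * n⁻¹) * n⁻¹ = y := fun y => by
    rw [show n * (n * y * n⁻¹) * n⁻¹ = (n * n) * y * (n * n)⁻¹ by group, hn]; simp
  exact ⟨by rintro ⟨y, hy, rfl⟩; exact (e y).symm ▸ hy, fun h => ⟨_, h, e g⟩⟩

/-- The iterated cores. -/
def sq (M : Subgroup G) (n : G) : ℕ → Subgroup G
  | 0 => M
  | i + 1 => ((sq M n i ⊓ (sq M n i).map (MulAut.conj n).toMonoidHom).subgroupOf M).normalCore.map M.subtype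

theorem mem_sq {M : Subgroup G} {n : G} (hn : n * n = 1) {i : ℕ} {g : G} : g ∈ sq M n (i + 1) ↔
    g ∈ M ∧ ∀ m ∈ M, m * g * m⁻¹ ∈ sq M n i ∧ n * (m * g * m⁻¹) * n⁻¹ ∈ sq M n i := by
  simp only [sq, mem_core, Subgroup.mem_inf, mem_cj hn]

theorem sq_map {M : Subgroup G} {n : G} (hn : n * n = 1) (i : ℕ) : (sq M n (i + 1)).map (MulAut.conj n).toMonoidHom =
    ((sq M n i ⊓ (sq M n i).map (MulAut.conj n).toMonoidHom).subgroupOf (M.map (MulAut.conj n).toMonoidHom)).normalCore.map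
      (M.map (MulAut.conj n).toMonoidHom).subtype := by
  have e : ∀ y : G, n * (n * y * n⁻¹) * n⁻¹ = y := fun y => by
    rw [show n * (n * y * n⁻¹) * n⁻¹ = (n * n) * y * (n * n)⁻¹ by group, hn]; simp
  ext g
  simp only [mem_core, mem_cj hn, mem_sq hn, Subgroup.mem_inf]
  refine and_congr_right fun _ => ⟨fun h m hm => ?_, fun h m hm => ?_⟩
  · have := h _ hm
    rw [show n * m * n⁻¹ * (n * g * n⁻¹) * (n * m * n⁻¹)⁻¹ = n * (m * g * m⁻¹) * n⁻¹ by group, e] at this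
    exact this.symm
  · have := h (n * m * n⁻¹) (by rwa [e])
    rw [show n * m * n⁻¹ * g * (n * m * n⁻¹)⁻¹ = n * (m * (n⁻¹ * g * n⁻¹⁻¹) * m⁻¹) * n⁻¹ by group, e,
      show n⁻¹ * g * n⁻¹⁻¹ = n * g * n⁻¹ by rw [inv_inv, inv_eq_of_mul_eq_one_right hn]] at this
    exact this.symm
end

variable {D : ChevalleyDatum} [Good D] [Conn D] {G : Type*} [Group G] {X : Sys D (ZMod 2) G} (c : X.Cover) {j : Sm D}

theorem le_sq (h4 : ∀ r, 2 ≤ rtv r j → car j r ≤ 1) (i : ℕ) :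
    X.U (S j (i + 1) ∅) ≤ sq (X.P {j}ᶜ) (X.n (sm j) 1) i := by
  induction i with
  | zero => exact Q_le (by simp) _
  | succ i ih =>
    refine fun y hy => (mem_sq nn).2 ⟨Q_le (by omega) _ hy, fun m hm => ?_⟩
    have := conj_Q (by omega) hm hy
    refine ⟨ih (mono this fun r hr => ⟨by have := hr.1; omega, id⟩), ih ((X.mon_sm j one_ne_zero).conj_mem_U
      (fun r hr => And.intro ?_ id) this)⟩
    have := hr.1
    have := h4 r (by omega)
    rw [lv_sr]; omega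

include c

theorem sq_le (h1 : ∀ r, rtv r j = 1 → r = sm j ∨ ∃ i, i ≠ j ∧ 0 < car i r) (h2 : ∀ r, 0 < rtv r j → ∃ i, 0 < car i r)
    (h3 : ∀ i, i ≠ j → ∃ r, rtv r j = 1 ∧ car i r = -1) (i : ℕ) :
    sq (X.P {j}ᶜ) (X.n (sm j) 1) (i + 1) ≤ X.U (S j (i + 2) ∅) := by
  induction i with
  | zero =>
    refine fun y hy => step1 c h1 (step0 c h1 h3 (fun y hy => ((mem_sq nn).1 hy).1) (fun m hm y hy => ?_)
      (fun y hy => by simpa [sq] using (((mem_sq nn).1 hy).2 1 (one_mem _)).2) hy) fun m hm => (((mem_sq nn).1 hy).2 m hm).2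
    obtain ⟨a, b⟩ := (mem_sq nn).1 hy
    refine (mem_sq nn).2 ⟨mul_mem (mul_mem hm a) (inv_mem hm), fun m' hm' => ?_⟩
    rw [show m' * (m * y * m⁻¹) * m'⁻¹ = m' * m * y * (m' * m)⁻¹ by group]
    exact b _ (mul_mem hm' hm)
  | succ i ih =>
    intro y hy
    obtain ⟨-, b⟩ := (mem_sq nn).1 hy
    have := stepk c h2 (by omega) (ih (by simpa using (b 1 (one_mem _)).1)) fun m hm => ih (b m hm).2
    convert this using 3
    push_cast; ring

theorem coatom (hX : X.U Set.univ = ⊤) : IsCoatom (X.P {j}ᶜ) := by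
  refine ⟨fun h => n_notMem c (j := j) (h ▸ trivial), fun K hK => ?_⟩
  by_cases h : X.n (sm j) 1 ∈ K
  · rw [eq_top_iff, ← hX, ← P_univ]
    refine sup_le ((X.B_le_P _).trans hK.le) ((Subgroup.closure_le _).2 ?_)
    rintro _ ⟨i, -, rfl⟩
    by_cases hi : i = j
    exacts [hi ▸ h, hK.le (X.n_mem_P hi)]
  refine absurd (BN.eq_parabolic (P := c.bn hX) ((X.B_le_P _).trans hK.le)).le fun h' => hK.not_ge (h'.trans ?_)
  refine sup_le (X.B_le_P _) ((Subgroup.closure_le _).2 ?_)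
  rintro _ ⟨⟨i, rfl⟩, hi⟩
  exact X.n_mem_P fun e => h (e ▸ hi)

theorem P_ne : X.P {j}ᶜ ≠ (X.P {j}ᶜ).map (MulAut.conj (X.n (sm j) 1)).toMonoidHom := fun h => by
  have h0 : X.x (sm j) 1 ∈ X.U (S j 1 ∅) := X.x_mem_U (S := S j 1 ∅) (And.intro (by simp [rtv_sm]) id) 1
  exact (c.mem_of_x_mem_U (nilp_S one_pos (by simp [rtv_sm])) (htF_rtv (sm j) ▸ (pos_sm j).ht_pos) one_ne_zero
    (hyp c h0 ((mem_cj nn).1 (h ▸ Q_le one_pos _ h0)))).2 rfl

end Cfsg.Agent.FI.Core
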